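import Cfsg.Agent.Perm.Hk1
import Cfsg.Agent.Perm.Hall4
import Cfsg.Agent.S0418

/-! Quadruply transitive groups: restriction to invariant sets, Witt's lemma, Hall's theorem. -/

set_option autoImplicit false
set_option linter.unusedSectionVars false

namespace CF.Q4
open MulAction Subgroup Cfsg CF.BG CF.Bender CF.ZD CF.Tw CF.Hk
open CF.Perm (D4)
open scoped _root_.Classical

variable {G Ω : Type*} [Group G] [Finite G] [MulAction G Ω] [Finite Ω]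

/-- quadruple transitivity -/
def G4 (G Ω : Type*) [Group G] [MulAction G Ω] : Prop :=
  ∀ ⦃a b c d a' b' c' d' : Ω⦄, D4 a b c d → D4 a' b' c' d' →
    ∃ g : G, g • a = a' ∧ g • b = b' ∧ g • c = c' ∧ g • d = d'

/-- four points of a set -/
abbrev In4 (Φ : Set Ω) (a b c d : Ω) : Prop := a ∈ Φ ∧ b ∈ Φ ∧ c ∈ Φ ∧ d ∈ Φ

/-- `N` is quadruply transitive on `Φ` -/
structure T4 (N : Subgroup G) (Φ : Set Ω) : Prop where
  le : N ≤ St G Φ
  tr : ∀ ⦃a b c d a' b' c' d' : Ω⦄, D4 a b c d → D4 a' b' c' d' → In4 Φ a b c d → In4 Φ a' b' c' d' →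
    ∃ g ∈ N, g • a = a' ∧ g • b = b' ∧ g • c = c' ∧ g • d = d'

/-- four point stabiliser -/
def S4 (G : Type*) [Group G] [MulAction G Ω] (a b c d : Ω) : Subgroup G :=
  stabilizer G a ⊓ stabilizer G b ⊓ stabilizer G c ⊓ stabilizer G d

variable {Φ Δ Γ B : Set Ω} {a b c d a' b' c' d' e p q r : Ω} {g h k s t u v w x y z : G}
  {H K L M N P Q R U V W X Y : Subgroup G} {π : Set ℕ}

theorem mem_S4 : g ∈ S4 G a b c d ↔ g • a = a ∧ g • b = b ∧ g • c = c ∧ g • d = d := by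
  simp only [S4, mem_inf, mem_stabilizer_iff, and_assoc]

theorem cj_S4 (g : G) : cj g (S4 G a b c d) = S4 G (g • a) (g • b) (g • c) (g • d) := by
  simp only [S4, cj_inf, cj_stab]

theorem conj_S4 (hx : x ∈ S4 G a b c d) (g : G) : g * x * g⁻¹ ∈ S4 G (g • a) (g • b) (g • c) (g • d) := by
  rw [← cj_S4]; exact conj_mem_cj.2 hx

theorem le_S4 : U ≤ S4 G a b c d ↔ In4 (Fx Ω U) a b c d := by
  simp only [S4, le_inf_iff, and_assoc]; rfl

theorem Pt_le_S4 (h : In4 Φ a b c d) : Pt G Φ ≤ S4 G a b c d := fun _ hg =>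
  mem_S4.2 ⟨hg _ h.1, hg _ h.2.1, hg _ h.2.2.1, hg _ h.2.2.2⟩

theorem le_Pt : U ≤ Pt G Φ ↔ Φ ⊆ Fx Ω U :=
  ⟨fun h _ ha _ hg => h hg _ ha, fun h _ hg _ ha => h ha hg⟩

theorem self_Pt_Fx : U ≤ Pt G (Fx Ω U) := le_Pt.2 le_rfl

theorem norm_St : 𝐍 U ≤ St G (Fx Ω U) := fun _ hg => St.mk' fun _ ha => fx_inv hg ha

theorem Fx_anti (h : U ≤ V) : Fx Ω V ⊆ Fx Ω U := fun _ ha => h.trans ha

theorem Fx_cj : g • a ∈ Fx Ω (cj g U) ↔ a ∈ Fx Ω U := by rw [mem_Fx, mem_Fx, ← cj_stab, cj_le_cj]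

theorem ncard_Fx_cj (g : G) (U : Subgroup G) : (Fx Ω (cj g U)).ncard = (Fx Ω U).ncard :=
  ncard_smul g fun _ => Fx_cj

theorem D4_smul (D : D4 a b c d) (g : G) : D4 (g • a) (g • b) (g • c) (g • d) := by
  simpa only [D4, ne_eq, smul_left_cancel_iff] using D

theorem norm_S4 (h : ∀ x ∈ ({a, b, c, d} : Set Ω), g • x ∈ ({a, b, c, d} : Set Ω)) : g ∈ 𝐍 (S4 G a b c d) := by
  have : S4 G a b c d = Pt G {a, b, c, d} := Subgroup.ext fun g => by simp [mem_S4, mem_Pt]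
  exact this ▸ St_norm_Pt (St.mk' h)

theorem four_le (D : D4 a b c d) (h : In4 Φ a b c d) : 4 ≤ Φ.ncard := by
  have : ({a, b, c, d} : Set Ω).ncard = 4 := Set.ncard_eq_four.2 ⟨a, b, c, d, by simpa [D4] using D⟩
  exact this ▸ Set.ncard_le_ncard (by rintro _ (rfl | rfl | rfl | rfl) <;> tauto)

theorem exists_in4 (h : 4 ≤ Φ.ncard) : ∃ a b c d, D4 a b c d ∧ In4 Φ a b c d := by
  obtain ⟨s, hs, hs4⟩ := Set.exists_subset_card_eq h
  obtain ⟨p, q, r, s, h4, h5, h6, h7, h8, h9, rfl⟩ := Set.ncard_eq_four.1 hs4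
  exact ⟨p, q, r, s, ⟨h4, h5, h6, h7, h8, h9⟩, hs (by simp), hs (by simp), hs (by simp), hs (by simp)⟩

theorem exists_not_mem (l : List Ω) (h : l.length < Φ.ncard) : ∃ x ∈ Φ, x ∉ l := by
  by_contra! k
  have := Set.ncard_le_ncard (show Φ ⊆ l.toFinset from fun x hx => by simpa using k x hx)
  rw [Set.ncard_coe_finset] at this
  exact absurd (this.trans l.toFinset_card_le) (by omega)

theorem le_ncard (l : List Ω) (n : l.Nodup) (h : ∀ x ∈ l, x ∈ Φ) : l.length ≤ Φ.ncard := by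
  have := Set.ncard_le_ncard (show ↑l.toFinset ⊆ Φ from fun x hx => h x (by simpa using hx))
  rwa [Set.ncard_coe_finset, List.toFinset_card_of_nodup n] at this

theorem mem_of_ncard (l : List Ω) (n : l.Nodup) (h : ∀ x ∈ l, x ∈ Φ) (e : Φ.ncard ≤ l.length) (ha : a ∈ Φ) :
    a ∈ l := by
  by_contra k
  have := le_ncard (Φ := Φ) (a :: l) (List.nodup_cons.2 ⟨k, n⟩) (by simpa [ha] using h)
  rw [List.length_cons] at this
  omega

theorem G4.t4 (h : G4 G Ω) : T4 (⊤ : Subgroup G) (Set.univ : Set Ω) :=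
  ⟨St_univ.ge, fun _ _ _ _ _ _ _ _ D D' _ _ => let ⟨g, e⟩ := h D D'; ⟨g, trivial, e⟩⟩

theorem G4.mt (h : G4 G Ω) : IsMultiplyPretransitive G Ω 4 :=
  Perm.fourTrans_iff.2 fun _ _ _ _ _ _ _ _ h1 h2 h3 h4 h5 h6 k1 k2 k3 k4 k5 k6 =>
    h ⟨h1, h2, h3, h4, h5, h6⟩ ⟨k1, k2, k3, k4, k5, k6⟩

theorem g4_of (h : IsMultiplyPretransitive G Ω 4) : G4 G Ω :=
  fun _ _ _ _ _ _ _ _ ⟨h1, h2, h3, h4, h5, h6⟩ ⟨k1, k2, k3, k4, k5, k6⟩ =>
    Perm.fourTrans_iff.1 h _ _ _ _ _ _ _ _ h1 h2 h3 h4 h5 h6 k1 k2 k3 k4 k5 k6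

/-- the embedding of four points -/
def emb (D : D4 a b c d) : Fin 4 ↪ Ω := ⟨_, Perm.inj4 D.1 D.2.1 D.2.2.1 D.2.2.2.1 D.2.2.2.2.1 D.2.2.2.2.2⟩

theorem stab_emb (D : D4 a b c d) : stabilizer G (emb D) = S4 G a b c d := Subgroup.ext fun g => by
  rw [mem_stabilizer_iff, mem_S4, Function.Embedding.ext_iff, Fin.forall_fin_succ, Fin.forall_fin_succ,
    Fin.forall_fin_two]
  rfl

theorem G4.card (h : G4 G Ω) (D : D4 a b c d) :
    Nat.card G = (Nat.card Ω).descFactorial 4 * ♯(S4 G a b c d) := by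
  rw [Perm.card_eq_of_sharp h.mt (emb D), stab_emb]

theorem G4.cj (h : G4 G Ω) (D : D4 a b c d) (D' : D4 a' b' c' d') :
    ∃ g : G, cj g (S4 G a b c d) = S4 G a' b' c' d' :=
  let ⟨g, e1, e2, e3, e4⟩ := h D D'; ⟨g, by rw [cj_S4, e1, e2, e3, e4]⟩

theorem G4.card_S4 (h : G4 G Ω) (D : D4 a b c d) (D' : D4 a' b' c' d') :
    ♯(S4 G a' b' c' d') = ♯(S4 G a b c d) := let ⟨g, e⟩ := h.cj D D'; by rw [← e, card_cj]

theorem T4.mono (T : T4 N Φ) (l : N ≤ M) (m : M ≤ St G Φ) : T4 M Φ :=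
  ⟨m, fun _ _ _ _ _ _ _ _ D D' i i' => let ⟨g, hg, e⟩ := T.tr D D' i i'; ⟨g, l hg, e⟩⟩

theorem t4_of (le : N ≤ St G Φ) (h : ∀ ⦃a' b' c' d'⦄, D4 a' b' c' d' → In4 Φ a' b' c' d' →
    ∃ g ∈ N, g • a' = a ∧ g • b' = b ∧ g • c' = c ∧ g • d' = d) : T4 N Φ :=
  ⟨le, fun _ _ _ _ _ _ _ _ D D' i i' => by
    obtain ⟨g, hg, e1, e2, e3, e4⟩ := h D i
    obtain ⟨k, hk, f1, f2, f3, f4⟩ := h D' i'
    exact ⟨k⁻¹ * g, mul_mem (inv_mem hk) hg, by simp only [mul_smul, inv_smul_eq_iff, *, and_self]⟩⟩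

/-- Witt's lemma -/
theorem G4.witt (h : G4 G Ω) (D : D4 a b c d)
    (k : ∀ g, BG.cj g U ≤ S4 G a b c d → ∃ h ∈ S4 G a b c d, BG.cj g U = BG.cj h U) : T4 (𝐍 U) (Fx Ω U) :=
  t4_of (a := a) (b := b) (c := c) (d := d) norm_St fun _ _ _ _ D' i => by
    obtain ⟨g, e1, e2, e3, e4⟩ := h D' D
    obtain ⟨m, hm, e⟩ := k g (by rw [← e1, ← e2, ← e3, ← e4, ← cj_S4]; exact cj_mono g (le_S4.2 i))
    rw [mem_S4] at hm
    exact ⟨m⁻¹ * g, cj_eq_self.1 (by rw [← cj_cj, e, cj_cj, inv_mul_cancel, cj_one]),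
      by simp only [mul_smul, inv_smul_eq_iff, *, and_self]⟩

theorem G4.witt_syl {p : ℕ} (h : G4 G Ω) (D : D4 a b c d) (s : Syl p P (S4 G a b c d)) : T4 (𝐍 P) (Fx Ω P) :=
  h.witt D fun g hg => s.syl_conj (s.of_card hg (card_cj ..))

/-! ### restriction -/

/-- restriction to an invariant set -/
def res (G : Type*) [Group G] [MulAction G Ω] (Φ : Set Ω) : St G Φ →* Equiv.Perm Φ where
  toFun g := ⟨fun x => ⟨g.1 • x.1, (g.2 _).2 x.2⟩, fun x => ⟨g.1⁻¹ • x.1, (inv_mem g.2 _).2 x.2⟩,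
    fun x => Subtype.ext (inv_smul_smul ..), fun x => Subtype.ext (smul_inv_smul ..)⟩
  map_one' := Equiv.ext fun x => Subtype.ext (one_smul ..)
  map_mul' _ _ := Equiv.ext fun x => Subtype.ext (mul_smul ..)

theorem res_apply (g : St G Φ) (x : Φ) : (res G Φ g x : Ω) = g.1 • x.1 := rfl

/-- the group induced on `Φ` -/
def Im (Φ : Set Ω) (N : Subgroup G) : Subgroup (Equiv.Perm Φ) := (N.subgroupOf (St G Φ)).map (res G Φ)

theorem res_mem (hg : g ∈ N) (hs : g ∈ St G Φ) : res G Φ ⟨g, hs⟩ ∈ Im Φ N := mem_map_of_mem _ hg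

theorem Im.ex {σ : Equiv.Perm Φ} (h : σ ∈ Im Φ N) : ∃ g ∈ N, ∃ hs : g ∈ St G Φ, res G Φ ⟨g, hs⟩ = σ :=
  let ⟨g, hg, e⟩ := h; ⟨g, hg, g.2, e⟩

theorem res_eq_one {hs : g ∈ St G Φ} : res G Φ ⟨g, hs⟩ = 1 ↔ g ∈ Pt G Φ :=
  ⟨fun h a ha => congrArg Subtype.val (Equiv.congr_fun h ⟨a, ha⟩),
    fun h => Equiv.ext fun x => Subtype.ext (h _ x.2)⟩

theorem Im_mono (h : N ≤ M) : Im Φ N ≤ Im Φ M := map_mono (subgroupOf_mono _ h)

theorem Im_norm (h : M ≤ 𝐍 N) : Im Φ M ≤ 𝐍 (Im Φ N) := map_norm (subgroupOf_norm _ h) _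

/-- the homomorphism onto the induced group -/
def rho (le : N ≤ St G Φ) : N →* Im Φ N :=
  ((res G Φ).comp (inclusion le)).codRestrict _ fun g => res_mem g.2 (le g.2)

theorem rho_smul (le : N ≤ St G Φ) (g : N) (x : Φ) : ((rho le g • x : Φ) : Ω) = g.1 • x.1 := rfl

theorem rho_surj (le : N ≤ St G Φ) : Function.Surjective (rho le) := fun ⟨_, h⟩ =>
  let ⟨g, hg, _, e⟩ := Im.ex h; ⟨⟨g, hg⟩, Subtype.ext e⟩

theorem rho_eq_one (le : N ≤ St G Φ) {g : N} : rho le g = 1 ↔ g.1 ∈ Pt G Φ :=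
  Subtype.ext_iff.trans res_eq_one

theorem rho_fix (le : N ≤ St G Φ) {g : N} {x : Φ} : rho le g • x = x ↔ g.1 • x.1 = x.1 := Subtype.ext_iff

theorem rho_S4 (le : N ≤ St G Φ) {g : N} {a b c d : Φ} :
    rho le g ∈ S4 (Im Φ N) a b c d ↔ g.1 ∈ S4 G a.1 b.1 c.1 d.1 := by
  simp only [mem_S4, rho_fix]

theorem rho_S4' (le : N ≤ St G Φ) (i : In4 Φ a b c d) {g : N} :
    rho le g ∈ S4 (Im Φ N) (⟨a, i.1⟩ : Φ) ⟨b, i.2.1⟩ ⟨c, i.2.2.1⟩ ⟨d, i.2.2.2⟩ ↔ g.1 ∈ S4 G a b c d := rho_S4 le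

theorem card_Im (le : N ≤ St G Φ) : ♯(N ⊓ Pt G Φ) * ♯(Im Φ N) = ♯N := by
  have e : (rho le).ker = (Pt G Φ).subgroupOf N := Subgroup.ext fun _ => rho_eq_one le
  rw [← (rho le).ker.card_mul_index, index_ker, (rho le).range_eq_top.2 (rho_surj le), card_top, e,
    OdT_card]
  where OdT_card : Nat.card ((Pt G Φ).subgroupOf N) = ♯(N ⊓ Pt G Φ) := by
          rw [← card_map N.subtype_injective, subgroupOf_map_subtype, inf_comm]

theorem card_dvd_fact (le : N ≤ St G Φ) (e : N ⊓ Pt G Φ = ⊥) : ♯N ∣ Φ.ncard.factorial := by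
  have := card_subgroup_dvd_card (Im Φ N)
  rwa [Nat.card_perm, ← one_mul (Nat.card _), ← card_bot (G := G), ← e, card_Im le] at this

theorem D4_coe {a b c d : Φ} : D4 a b c d ↔ D4 a.1 b.1 c.1 d.1 := by simp only [D4, ne_eq, Subtype.ext_iff]

theorem T4.g4 (T : T4 N Φ) : G4 (Im Φ N) Φ := fun a b c d a' b' c' d' D D' =>
  let ⟨g, hg, e1, e2, e3, e4⟩ := T.tr (D4_coe.1 D) (D4_coe.1 D') ⟨a.2, b.2, c.2, d.2⟩ ⟨a'.2, b'.2, c'.2, d'.2⟩
  ⟨rho T.le ⟨g, hg⟩, Subtype.ext e1, Subtype.ext e2, Subtype.ext e3, Subtype.ext e4⟩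

/-! ### parts of elements -/

theorem part_mem {n : ℕ} (hn : PiNat π n) (h : g ^ n ∈ W) : (constt π g)⁻¹ * g ∈ W := by
  obtain ⟨z, -, ⟨i, hi⟩, -, hz, e⟩ := constt_spec π g
  rw [inv_mul_eq_iff_eq_mul.2 e.symm]
  refine zpowers_le.2 (?_ : z ^ n ∈ W) (mem_zpowers_pow_iff.2 (hn.coprime hz))
  rw [← hi, ← zpow_natCast, ← zpow_mul, mul_comm, zpow_mul, zpow_natCast]
  exact zpow_mem h i

theorem exists_part {n : ℕ} (hn : PiNat π n) (h : g ^ n ∈ Pt G B) :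
    ∃ x ∈ zpowers g, PiElt π x ∧ ∀ a ∈ B, x • a = g • a :=
  ⟨_, constt_mem π g, constt_pi π g, fun _ ha => (Pt.smul_eq (part_mem hn h) ha).symm⟩

theorem lift_pi (le : N ≤ St G Φ) {σ : Im Φ N} (h : PiElt π σ) : ∃ g : N, PiElt π g.1 ∧ rho le g = σ := by
  obtain ⟨g, rfl⟩ := rho_surj le σ
  have := part_mem (W := (rho le).ker) (g := g) h (by rw [MonoidHom.mem_ker, map_pow, pow_orderOf_eq_one])
  rw [MonoidHom.mem_ker, map_mul, map_inv, inv_mul_eq_one] at this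
  exact ⟨_, by rw [PiElt, Subgroup.orderOf_coe]; exact constt_pi π g, this⟩

theorem conj_of_coset {p : ℕ} (k : PiGrp {p}ᶜ W) (hx : PiElt {p} x) (hy : PiElt {p} y) (n : y ∈ 𝐍 W)
    (e : y⁻¹ * x ∈ W) : ∃ w ∈ W, w * x * w⁻¹ = y := by
  obtain ⟨w, hw, l⟩ := exists_cj_le_of_le_sup (A := zpowers y) (B := zpowers x) (zpowers_le.2 n)
    (zpowers_le.2 (by simpa using mul_mem (mem_sup_right (mem_zpowers y)) (mem_sup_left (T := zpowers y) e)))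
    ((piGrp_zpowers.2 hx).coprime k) (.inl (cyc_zpowers x).sol)
  have m : w * x * w⁻¹ ∈ zpowers y := l (conj_mem_cj.2 (mem_zpowers x))
  refine ⟨w, hw, (inv_mul_eq_one.1 (PiElt.eq_one (hy.of_mem_zpowers (mul_mem (inv_mem (mem_zpowers y)) m))
    (k.elt ?_))).symm⟩
  simpa [mul_assoc] using mul_mem (mul_mem (conj_mem_of_norm' n hw) e) (inv_mem hw)

/-! ### alternating groups -/

/-- products of two transpositions are induced -/
def Alt (N : Subgroup G) (Φ : Set Ω) : Prop := ∀ ⦃a b c d⦄, In4 Φ a b c d → a ≠ b → c ≠ d →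
  ∃ g ∈ N, ∀ x ∈ Φ, g • x = Equiv.swap a b (Equiv.swap c d x)

/-- no transposition is induced -/
def Ev (N : Subgroup G) (Φ : Set Ω) : Prop := ∀ g ∈ N, ∀ a ∈ Φ, ∀ b ∈ Φ, a ≠ b → g • a = b →
  ¬ ∀ x ∈ Φ, x ≠ a → x ≠ b → g • x = x

theorem alt_of [Fintype Φ] (h : alternatingGroup Φ ≤ Im Φ N) : Alt N Φ := fun a b c d i n m => by
  obtain ⟨g, hg, hs, e⟩ := Im.ex (h (show Equiv.swap ⟨a, i.1⟩ ⟨b, i.2.1⟩ * Equiv.swap ⟨c, i.2.2.1⟩ ⟨d, i.2.2.2⟩ ∈ _ by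
    rw [Equiv.Perm.mem_alternatingGroup, map_mul, Equiv.Perm.sign_swap (by simpa),
      Equiv.Perm.sign_swap (by simpa)]; rfl))
  refine ⟨g, hg, fun x hx => (congrArg Subtype.val (Equiv.congr_fun e ⟨x, hx⟩)).trans ?_⟩
  rw [Equiv.Perm.mul_apply, Subtype.val_injective.map_swap, Subtype.val_injective.map_swap]

theorem ev_of [Fintype Φ] (le : N ≤ St G Φ) (h : Im Φ N ≤ alternatingGroup Φ) : Ev N Φ := fun g hg a ha b hb n e f => by
  have := h (res_mem hg (le hg))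
  have n' : g • b ≠ b := fun e' => n (MulAction.injective g (e.trans e'.symm))
  have e' : g • b = a := by_contra fun k => n' (MulAction.injective g (f _ (St.smul (le hg) hb) k n'))
  rw [show res G Φ ⟨g, le hg⟩ = Equiv.swap ⟨a, ha⟩ ⟨b, hb⟩ from Equiv.ext fun x => Subtype.ext (by
    rw [res_apply, Subtype.val_injective.map_swap, Equiv.swap_apply_def]; have := f x x.2; grind),
    Equiv.Perm.mem_alternatingGroup, Equiv.Perm.sign_swap (by simpa)] at this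
  exact absurd this (by decide)

/-! ### Hall's theorem -/

theorem hall' {α : Type*} [Fintype α] [DecidableEq α] {I : Subgroup (Equiv.Perm α)} (T : G4 I α) {a b c d : α}
    (D : D4 a b c d) (o : Odd (♯(S4 I a b c d))) :
    ((Nat.card α = 4 ∨ Nat.card α = 5 ∨ Nat.card α = 6 ∨ Nat.card α = 11) ∧ S4 I a b c d = ⊥ ∨
      Nat.card α = 7 ∧ I = alternatingGroup α) ∧ (6 ≤ Nat.card α → IsSimpleGroup I) := by
  have c0 := T.card D
  have a1 : I = alternatingGroup α → 6 ≤ Nat.card α → IsSimpleGroup I := fun h l =>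
    h ▸ alternatingGroup.isSimpleGroup (by omega)
  have e : stabilizer I (emb D) = S4 I a b c d := stab_emb D
  rw [← card_eq_one']
  have := Perm.hall_four I T.mt (emb D) (e ▸ o)
  rw [← Nat.card_eq_fintype_card] at this
  obtain ⟨h1, h2⟩ | ⟨h1, h2⟩ | ⟨h1, h2⟩ := this
  · have c1 : Nat.card I = (Nat.card α).factorial := by rw [h2, card_top, Nat.card_perm]
    rw [c1] at c0
    refine ⟨.inl ⟨by omega, ?_⟩, by omega⟩
    rcases h1 with h1 | h1 <;> rw [h1] at c0 <;> simp only [Nat.factorial, Nat.descFactorial] at c0 <;> omega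
  · refine ⟨h1.imp (fun h1 => ⟨by omega, ?_⟩) fun h1 => ⟨h1, h2⟩, a1 h2⟩
    have : Nontrivial α := Finite.one_lt_card_iff_nontrivial.1 (by omega)
    have c1 := two_mul_nat_card_alternatingGroup (α := α)
    rw [← h2, c0, Nat.card_perm, h1] at c1
    simp only [Nat.factorial, Nat.descFactorial] at c1
    omega
  · rw [h2, h1] at c0
    simp only [Nat.descFactorial] at c0
    refine ⟨.inl ⟨by omega, by omega⟩, fun _ => ?_⟩
    have := T.mt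
    refine (Agent.S0418.result (Nat.card_eq_fintype_card.symm.trans h1) I fun x => card_eq_one'.1 ?_).1
    exact (Perm.card_stabilizer_embedding_eq this x (emb D)).trans (by rw [stab_emb]; omega)

theorem T4.hall (T : T4 N Φ) (D : D4 a b c d) (i : In4 Φ a b c d)
    (o : ∀ g ∈ N, g ∈ S4 G a b c d → PiElt {2} g → g ∈ Pt G Φ) :
    ((Φ.ncard = 4 ∨ Φ.ncard = 5 ∨ Φ.ncard = 6 ∨ Φ.ncard = 11) ∧ N ⊓ S4 G a b c d ≤ Pt G Φ ∨
      Φ.ncard = 7 ∧ Alt N Φ ∧ Ev N Φ) ∧ (6 ≤ Φ.ncard → IsSimpleGroup (Im Φ N)) := by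
  have := Fintype.ofFinite Φ
  have D' : D4 (⟨a, i.1⟩ : Φ) ⟨b, i.2.1⟩ ⟨c, i.2.2.1⟩ ⟨d, i.2.2.2⟩ := D4_coe.2 D
  refine (hall' T.g4 D' (odd_of_no_iv fun σ hσ v => ?_)).imp_left (Or.imp (And.imp_right fun h g hg => ?_)
    (And.imp_right fun h => ⟨alt_of h.ge, ev_of T.le h.le⟩))
  · obtain ⟨g, hg, rfl⟩ := lift_pi T.le (π := {2}) (σ := σ) (by rw [PiElt, v.orderOf]; exact piNat_self p2)
    exact v.ne ((rho_eq_one _).2 (o _ g.2 ((rho_S4' _ i).1 hσ) hg))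
  · exact (rho_eq_one T.le (g := ⟨g, hg.1⟩)).1 (eq_one_of_mem_bot h ((rho_S4' _ i).2 hg.2))

/-! ### counting -/

theorem card_fib {α β : Type*} [Finite α] [Finite β] {s : Set α} {t : Set β} (f : α → β) {m : ℕ}
    (h1 : ∀ x ∈ s, f x ∈ t) (h2 : ∀ y ∈ t, {x | x ∈ s ∧ f x = y}.ncard = m) : s.ncard = t.ncard * m := by
  have := Fintype.ofFinite α
  have := Fintype.ofFinite β
  rw [Set.ncard_eq_toFinset_card', Set.ncard_eq_toFinset_card',
    Finset.card_eq_sum_card_fiberwise (f := f) (t := t.toFinset) fun x hx => by simpa using h1 x (by simpa using hx)]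
  refine Finset.sum_const_nat fun y hy => ?_
  rw [← h2 y (by simpa using hy), ← Set.ncard_coe_finset]
  congr 1
  ext; simp

theorem modEq_fix {α : Type*} [Finite α] {S : Set α} {p : ℕ} (hp : p.Prime) (f : α → α) (m : ∀ x ∈ S, f x ∈ S)
    (e : ∀ x ∈ S, f^[p] x = x) : S.ncard % p = {x | x ∈ S ∧ f x = x}.ncard % p := by
  have := Fintype.ofFinite α
  have := Fact.mk hp
  have h := Equiv.Perm.card_fixedPoints_modEq (f := Set.MapsTo.restrict f S S m) (p := p) (n := 1)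
    (funext fun y => Subtype.ext (by
      rw [pow_one]; exact (Set.MapsTo.coe_iterate_restrict m y p).trans (e _ y.2)))
  rw [← Nat.card_eq_fintype_card, ← Nat.card_eq_fintype_card] at h
  refine h.trans (Eq.symm (congrArg (· % p) ?_))
  exact Nat.card_congr ⟨fun x => ⟨⟨x, x.2.1⟩, Subtype.ext x.2.2⟩,
    fun x => ⟨x.1, x.1.2, congrArg Subtype.val x.2⟩, fun _ => rfl, fun _ => rfl⟩

theorem modEq_smul {p : ℕ} (hp : p.Prime) (s : g ∈ St G Φ) (e : g ^ p ∈ Pt G Φ) :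
    Φ.ncard % p = {x | x ∈ Φ ∧ g • x = x}.ncard % p :=
  modEq_fix hp (g • ·) (fun _ => St.smul s) fun x hx => by rw [smul_iterate_apply, e x hx]

theorem exists_fix {p : ℕ} (hp : p.Prime) (k : PiGrp {p} P) (inv : ∀ g ∈ P, ∀ x ∈ Φ, g • x ∈ Φ)
    (n : ¬ p ∣ Φ.ncard) : ∃ x ∈ Φ, x ∈ Fx Ω P := by
  have := Fact.mk hp
  have h := Fgs3.ncard_modEq_fixed k.isPGroup Φ (Set.toFinite _) inv
  obtain ⟨x, hx⟩ := Set.nonempty_of_ncard_ne_zero fun e => n (Nat.modEq_zero_iff_dvd.1 (h.trans (by rw [e])))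
  exact ⟨x, hx.1, hx.2⟩

end CF.Q4
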