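import Cfsg.Agent.Q4.A

/-! Nagao's theorem: a four point stabiliser of even order fixes no further point. -/

set_option autoImplicit false
set_option linter.unusedSectionVars false

namespace CF.Q4
open MulAction Subgroup Cfsg CF.BG CF.Bender CF.ZD CF.Tw CF.Hk
open CF.Perm (D4)
open scoped _root_.Classical

variable {G Ω : Type*} [Group G] [Finite G] [MulAction G Ω] [Finite Ω]
variable {Φ Δ Γ B : Set Ω} {a b c d a' b' c' d' e p q r : Ω} {g h k s t u v w x y z : G}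
  {H K L M N P Q R U V W X Y : Subgroup G} {π : Set ℕ}

section count
variable {α β : Type*} [Finite α] [Finite β]

theorem ncard_rel (R : α → β → Prop) {s : Set α} {m : ℕ} (h0 : ∀ x y, R x y → x ∈ s)
    (h1 : ∀ x ∈ s, {y | R x y}.ncard = m) : {p : α × β | R p.1 p.2}.ncard = s.ncard * m :=
  card_fib Prod.fst (fun p hp => h0 _ _ hp) fun x hx => by
    rw [← h1 x hx, ← Set.ncard_image_of_injective {y | R x y} (Prod.mk_right_injective x)]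
    congr 1
    ext ⟨y, z⟩
    simp only [Set.mem_setOf_eq, Set.mem_image, Prod.mk.injEq]
    grind

theorem dcount (R : α → β → Prop) {s : Set α} {t : Set β} {m n : ℕ} (h0 : ∀ x y, R x y → x ∈ s ∧ y ∈ t)
    (h1 : ∀ x ∈ s, {y | R x y}.ncard = m) (h2 : ∀ y ∈ t, {x | R x y}.ncard = n) : s.ncard * m = t.ncard * n := by
  rw [← ncard_rel R (fun x y h => (h0 x y h).1) h1, ← ncard_rel (fun y x => R x y) (fun x y h => (h0 y x h).2) h2,
    ← Set.ncard_image_of_injective _ Prod.swap_injective, Set.image_swap_eq_preimage_swap]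
  rfl

/-- ordered pairs of distinct elements -/
def Pr (s : Set α) : Set (α × α) := {p | p.1 ∈ s ∧ p.2 ∈ s ∧ p.1 ≠ p.2}

theorem ncard_pairs (s : Set α) : (Pr s).ncard = s.ncard * (s.ncard - 1) :=
  ncard_rel (fun x y => x ∈ s ∧ y ∈ s ∧ x ≠ y) (fun _ _ h => h.1) fun x hx => by
    rw [← Set.ncard_sdiff_singleton_of_mem hx]
    congr 1
    ext y
    simp [hx, eq_comm]

theorem ncard_out {s : Set α} (l : List α) (n : l.Nodup) (h : ∀ x ∈ l, x ∈ s) :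
    {x | x ∈ s ∧ x ∉ l}.ncard = s.ncard - l.length := by
  rw [← List.toFinset_card_of_nodup n, ← Set.ncard_coe_finset, ← Set.ncard_sdiff fun x hx => h x (by simpa using hx)]
  congr 1
  ext; simp

end count

theorem nd4 (D : D4 a b c d) : [a, b, c, d].Nodup := by simp; grind

theorem nd3 (D : D4 a b c d) : [a, b, c].Nodup := by simp; grind

theorem nd5 (D : D4 a b c d) (n : e ∉ [a, b, c, d]) : [a, b, c, d, e].Nodup := by simp at n ⊢; grind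

theorem exists_sq (k : PiGrp {2} P) (n : ¬ P ≤ Q) : ∃ u ∈ P, u ∉ Q ∧ u * u ∈ Q := by
  obtain ⟨x, hx, hq⟩ := SetLike.not_le_iff_exists.1 n
  obtain ⟨m, hm⟩ := (k.elt hx).exists_pow (orderOf_pos x).ne'
  have ex : ∃ m, x ^ 2 ^ m ∈ Q := ⟨m, by rw [← hm, pow_orderOf_eq_one]; exact one_mem _⟩
  have h1 := Nat.find_spec ex
  obtain e | ⟨j, e⟩ := (Nat.find ex).eq_zero_or_eq_succ_pred.imp_right fun e => (⟨_, e⟩ : ∃ j, Nat.find ex = j + 1)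
  · rw [e] at h1; exact absurd (by simpa using h1) hq
  exact ⟨x ^ 2 ^ j, pow_mem hx _, Nat.find_min ex (by omega), by rwa [e, pow_succ, pow_mul, sq] at h1⟩

theorem exists_sq_norm (k : PiGrp {2} P) (l : Q < P) : ∃ u ∈ P, u ∈ 𝐍 Q ∧ u ∉ Q ∧ u * u ∈ Q :=
  let ⟨u, hu, h⟩ := exists_sq (P := P ⊓ 𝐍 Q) k.inf_left (k.nil.lt_inf_norm l).not_ge; ⟨u, hu.1, hu.2, h⟩

theorem Alt.move (A : Alt N Φ) (l : 7 ≤ Φ.ncard) (he : e ∈ Φ) (n : e ∉ [a, b, c, d]) (i : In4 Φ a b c d) :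
    ∃ g ∈ N, g ∈ S4 G a b c d ∧ g • e ≠ e := by
  obtain ⟨p, hp, n1⟩ := exists_not_mem [a, b, c, d, e] (Φ := Φ) (by simp; omega)
  obtain ⟨q, hq, n2⟩ := exists_not_mem [a, b, c, d, e, p] (Φ := Φ) (by simp; omega)
  simp only [List.mem_cons, List.not_mem_nil, not_or] at n n1 n2
  obtain ⟨g, hg, f⟩ := A ⟨he, hp, hp, hq⟩ (by grind) (by grind)
  refine ⟨g, hg, mem_S4.2 ?_, ?_⟩
  · simp only [f, i.1, i.2.1, i.2.2.1, i.2.2.2, Equiv.swap_apply_def]; grind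
  · simp only [f, he, Equiv.swap_apply_def]; grind

/-- the fixed points of a four point stabiliser -/
abbrev Bl (G : Type*) [Group G] [MulAction G Ω] (a b c d : Ω) : Set Ω := Fx Ω (S4 G a b c d)

theorem in_Bl : In4 (Bl G a b c d) a b c d := le_S4.1 le_rfl

theorem Bl_sub (i : In4 (Fx Ω U) a b c d) : Bl G a b c d ⊆ Fx Ω U := Fx_anti (le_S4.2 i)

theorem St_Bl (h : ∀ x ∈ ({a, b, c, d} : Set Ω), g • x ∈ ({a, b, c, d} : Set Ω)) : g ∈ St G (Bl G a b c d) :=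
  norm_St (norm_S4 h)

namespace G4
variable (h4 : G4 G Ω)
include h4

theorem S4_eq (D : D4 a b c d) (D' : D4 a' b' c' d') (i : In4 (Bl G a b c d) a' b' c' d') :
    S4 G a' b' c' d' = S4 G a b c d := (eq_of_card_eq (le_S4.2 i) (h4.card_S4 D' D)).symm

theorem Bl_eq (D : D4 a b c d) (D' : D4 a' b' c' d') (i : In4 (Bl G a b c d) a' b' c' d') :
    Bl G a' b' c' d' = Bl G a b c d := by rw [Bl, h4.S4_eq D D' i]

theorem ncard_Bl (D : D4 a b c d) (D' : D4 a' b' c' d') : (Bl G a' b' c' d').ncard = (Bl G a b c d).ncard :=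
  let ⟨g, e⟩ := h4.cj D D'; by rw [Bl, ← e, ncard_Fx_cj]

theorem sub_dvd (D : D4 a b c d) (hp : p ∈ Fx Ω U) (hq : q ∈ Fx Ω U) (hr : r ∈ Fx Ω U) (n : [p, q, r].Nodup) :
    (Bl G a b c d).ncard - 3 ∣ (Fx Ω U).ncard - 3 := by
  have k : ∀ x, x ∉ [p, q, r] → D4 p q r x := by
    simp only [List.nodup_cons, List.mem_cons, List.not_mem_nil] at *; grind
  rw [← show _ = (Fx Ω U).ncard - 3 from ncard_out [p, q, r] n (by simp [*]),
    card_fib (s := {x | x ∈ Fx Ω U ∧ x ∉ [p, q, r]}) (Bl G p q r) (fun x hx => Set.mem_image_of_mem _ hx)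
      (m := (Bl G a b c d).ncard - 3)]
  · exact Dvd.intro_left _ rfl
  rintro _ ⟨x, ⟨hx, hx'⟩, rfl⟩
  rw [← h4.ncard_Bl D (k x hx'), ← show _ = (Bl G p q r x).ncard - 3 from ncard_out [p, q, r] n (by
    simp [in_Bl.1, in_Bl.2.1, in_Bl.2.2.1])]
  congr 1
  ext y
  exact ⟨fun h => ⟨h.2 ▸ in_Bl.2.2.2, h.1.2⟩, fun h => ⟨⟨Bl_sub ⟨hp, hq, hr, hx⟩ h.1, h.2⟩,
    h4.Bl_eq (k x hx') (k y h.2) ⟨in_Bl.1, in_Bl.2.1, in_Bl.2.2.1, h.1⟩⟩⟩

/-- an involution on a block of six points -/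
theorem six (D : D4 a b c d) (l : (Bl G a b c d).ncard = 6) (e1 : u • a = b) (e2 : u • b = a) (e3 : u • c = d)
    (e4 : u • d = c) (he : e ∈ Bl G a b c d) (n : e ∉ [a, b, c, d]) : u • e = e := by
  obtain ⟨p, hp, n1⟩ := exists_not_mem [a, b, c, d, e] (Φ := Bl G a b c d) (by simp; omega)
  have i := in_Bl (G := G) (a := a) (b := b) (c := c) (d := d)
  simp only [List.mem_cons, List.not_mem_nil, not_or] at n n1
  have al : ∀ x ∈ Bl G a b c d, x = a ∨ x = b ∨ x = c ∨ x = d ∨ x = e ∨ x = p := fun x hx => by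
    simpa using mem_of_ncard [a, b, c, d, e, p] (by simp; grind) (by simp; grind) (by simp [l]) hx
  have D1 : D4 a b e p := by grind
  have D2 : D4 c d e p := by grind
  obtain ⟨g, f1, f2, f3, f4⟩ := h4 D1 (show D4 b a e p by grind)
  have s : g ∈ St G (Bl G a b c d) := h4.Bl_eq D D1 ⟨i.1, i.2.1, he, hp⟩ ▸ St_Bl (by simp [*])
  have gi := MulAction.injective (β := Ω) g
  have c1 := al _ (St.smul s i.2.2.1)
  have c2 := al _ (St.smul s i.2.2.2)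
  have c3 : ¬ (g • c = c ∧ g • d = d) := fun h => D.1 (f1 ▸ (i.1 (h4.S4_eq D D2 ⟨i.2.2.1, i.2.2.2, he, hp⟩ ▸
    mem_S4.2 ⟨h.1, h.2, f3, f4⟩)).symm)
  have c4 : g • c = d ∧ g • d = c := by
    have := @gi a c; have := @gi b c; have := @gi e c; have := @gi p c; have := @gi c d
    have := @gi a d; have := @gi b d; have := @gi e d; have := @gi p d
    grind
  have := he (mem_S4.2 (show (u * g) • a = a ∧ (u * g) • b = b ∧ (u * g) • c = c ∧ (u * g) • d = d by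
    simp [mul_smul, *]))
  rwa [mem_stabilizer_iff, mul_smul, f3] at this

theorem nagao_aux (D : D4 a b c d) (i : In4 (Fx Ω P) a b c d) (s : u ∈ St G (Fx Ω Q)) (s2 : u * u ∈ Pt G (Fx Ω Q))
    (f : ∀ {x}, x ∈ Fx Ω P ↔ x ∈ Fx Ω Q ∧ u • x = x) (hp : p ∈ Fx Ω Q) (np : p ∉ Fx Ω P) :
    ((Bl G a b c d).ncard % 2 = 1 → 3 ∣ (Fx Ω P).ncard * ((Fx Ω P).ncard - 1)) ∧
      ((Bl G a b c d).ncard = 6 → (Fx Ω P).ncard = 6 → False) := by
  have uu : ∀ {x}, x ∈ Fx Ω Q → u • u • x = x := fun hx => by rw [← mul_smul, s2 _ hx]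
  obtain ⟨q, e1⟩ : ∃ q, u • p = q := ⟨_, rfl⟩
  have hq : q ∈ Fx Ω Q := e1 ▸ St.smul s hp
  have e2 : u • q = p := e1 ▸ uu hp
  have n : p ≠ q := fun e => np (f.2 ⟨hp, e1.trans e.symm⟩)
  have nq : q ∉ Fx Ω P := fun e => n (e2.symm.trans (f.1 e).2)
  have n1 : ∀ {x}, x ∈ Fx Ω P → x ≠ p ∧ x ≠ q := fun hx => ⟨fun e => np (e ▸ hx), fun e => nq (e ▸ hx)⟩
  have k0 : ∀ {x : Ω × Ω}, x ∈ Pr (Fx Ω P) → D4 x.1 x.2 p q ∧ Bl G x.1 x.2 p q ⊆ Fx Ω Q ∧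
      u ∈ St G (Bl G x.1 x.2 p q) ∧ ∃ n, n ≤ 1 ∧ (Bl G a b c d).ncard % 2 = n ∧
      {z | (z ∈ Bl G x.1 x.2 p q ∧ u • z = z) ∧ z ∉ [x.1, x.2]}.ncard = n := by
    rintro ⟨x, y⟩ ⟨hx, hy, m⟩
    have D' : D4 x y p q := ⟨m, (n1 hx).1, (n1 hx).2, (n1 hy).1, (n1 hy).2, n⟩
    have l : Bl G x y p q ⊆ Fx Ω Q := Bl_sub ⟨(f.1 hx).1, (f.1 hy).1, hp, hq⟩
    have s' : u ∈ St G (Bl G x y p q) := St_Bl (by simp [e1, e2, show u • x = x from (f.1 hx).2,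
      show u • y = y from (f.1 hy).2])
    have k : ∀ z ∈ [x, y], z ∈ {z | z ∈ Bl G x y p q ∧ u • z = z} := by
      simpa using ⟨⟨in_Bl.1, (f.1 hx).2⟩, in_Bl.2.1, (f.1 hy).2⟩
    have c1 := ncard_out _ (by simpa) k
    have c2 := le_ncard _ (by simpa) k
    have c3 := h4.ncard_Bl D D' ▸ modEq_smul p2 s' (Pt_anti l (sq u ▸ s2))
    have c4 : ¬ 4 ≤ {z | z ∈ Bl G x y p q ∧ u • z = z}.ncard := fun k => by
      obtain ⟨x1, x2, x3, x4, D1, i1, i2, i3, i4⟩ := exists_in4 k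
      exact np (Bl_sub ⟨f.2 ⟨l i1.1, i1.2⟩, f.2 ⟨l i2.1, i2.2⟩, f.2 ⟨l i3.1, i3.2⟩, f.2 ⟨l i4.1, i4.2⟩⟩
        (h4.Bl_eq D' D1 ⟨i1.1, i2.1, i3.1, i4.1⟩ ▸ in_Bl.2.2.1))
    simp only [List.length_cons, List.length_nil] at c1 c2
    exact ⟨D', l, s', _, by omega, rfl, c1.trans (by omega)⟩
  refine ⟨fun o => ?_, fun l l' => ?_⟩
  · rw [← ncard_pairs, ← mul_one (Set.ncard _), ← ncard_rel (fun (x : Ω × Ω) z => x ∈ Pr (Fx Ω P) ∧
      (z ∈ Bl G x.1 x.2 p q ∧ u • z = z) ∧ z ∉ [x.1, x.2]) (fun _ _ h => h.1) fun x hx => by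
        obtain ⟨-, -, -, n, -, c1, c2⟩ := k0 hx
        simp only [hx, true_and]
        omega]
    refine Nat.dvd_of_mod_eq_zero ((modEq_fix Nat.prime_three (fun x => ((x.1.2, x.2), x.1.1)) ?_ fun _ _ => rfl).trans ?_)
    · rintro ⟨⟨x, y⟩, z⟩ ⟨hx, ⟨hz, e⟩, m'⟩
      obtain ⟨D', l, -⟩ := k0 hx
      simp only [List.mem_cons, List.not_mem_nil, not_or] at m' ⊢
      have j : (y, z) ∈ Pr (Fx Ω P) := ⟨hx.2.1, f.2 ⟨l hz, e⟩, Ne.symm m'.2.1⟩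
      exact ⟨j, ⟨h4.Bl_eq D' (k0 j).1 ⟨in_Bl.2.1, hz, in_Bl.2.2⟩ ▸ in_Bl.1, (f.1 hx.1).2⟩,
        by simpa using ⟨hx.2.2, Ne.symm m'.1⟩⟩
    · exact congrArg (· % 3) ((Set.ncard_eq_zero (Set.toFinite _)).2 (Set.eq_empty_of_forall_notMem
        fun x hx => hx.1.1.2.2 (congrArg (·.1.1) hx.2).symm))
  have c := dcount (fun (x : Ω × Ω) z => x ∈ Pr (Fx Ω P) ∧ z ∈ Bl G x.1 x.2 p q ∧ z ∉ [x.1, x.2, p, q])
    (t := {z | z ∈ Fx Ω Q \ Fx Ω P ∧ z ∉ [p, q]}) (m := 2) (n := 2)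
    (fun x z h => ⟨h.1, ⟨(k0 h.1).2.1 h.2.1, fun hz => by
      obtain ⟨-, -, -, n, -, c1, c2⟩ := k0 h.1
      have := (Set.ncard_pos (s := {z | (z ∈ Bl G x.1 x.2 p q ∧ u • z = z) ∧ z ∉ [x.1, x.2]})).2
        ⟨z, ⟨h.2.1, (f.1 hz).2⟩, fun m => h.2.2 (List.mem_append_left [p, q] m)⟩
      omega⟩, fun m => h.2.2 (List.mem_append_right [x.1, x.2] m)⟩)
    (fun x hx => by
      have D' := (k0 hx).1
      simp only [hx, true_and]
      rw [ncard_out _ (nd4 D') (by simpa using in_Bl), h4.ncard_Bl D D', l]; rfl)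
    (fun z ⟨⟨hz, nz⟩, m⟩ => by
      have z1 := uu hz
      have z2 : u • z ≠ z := fun e => nz (f.2 ⟨hz, e⟩)
      have D' : D4 p q z (u • z) := by clear * - z1 z2 m e1 e2 n; grind
      have j := in_Bl (G := G) (a := p) (b := q) (c := z) (d := u • z)
      have l0 : Bl G p q z (u • z) ⊆ Fx Ω Q := Bl_sub ⟨hp, hq, hz, St.smul s hz⟩
      have := ncard_pairs {x | x ∈ Bl G p q z (u • z) ∧ x ∉ [p, q, z, u • z]}
      rw [ncard_out _ (nd4 D') (by simpa using j), h4.ncard_Bl D D', l] at this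
      refine Eq.trans (congrArg Set.ncard ?_) this
      refine Set.ext fun ⟨x, y⟩ => ⟨fun ⟨hx, hb, m'⟩ => ?_, fun ⟨hx, hy, m'⟩ => ?_⟩
      · obtain ⟨D1, -, s', -⟩ := k0 hx
        have e := h4.Bl_eq D1 D' ⟨in_Bl.2.2.1, in_Bl.2.2.2, hb, St.smul s' hb⟩
        have x1 := (f.1 hx.1).2
        have y1 := (f.1 hx.2.1).2
        exact ⟨⟨e ▸ in_Bl.1, by clear * - D1 x1 z1 z2; grind⟩, ⟨e ▸ in_Bl.2.1, by clear * - D1 y1 z1 z2; grind⟩, hx.2.2⟩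
      · have j' : (x, y) ∈ Pr (Fx Ω P) := ⟨f.2 ⟨l0 hx.1, h4.six D' (h4.ncard_Bl D D' ▸ l) e1 e2 rfl z1 hx.1 hx.2⟩,
          f.2 ⟨l0 hy.1, h4.six D' (h4.ncard_Bl D D' ▸ l) e1 e2 rfl z1 hy.1 hy.2⟩, m'⟩
        have x1 := hx.2
        have y1 := hy.2
        exact ⟨j', h4.Bl_eq D' (k0 j').1 ⟨hx.1, hy.1, j.1, j.2.1⟩ ▸ j.2.2.1, by clear * - x1 y1 m; grind⟩)
  have sub : Fx Ω P ⊆ Fx Ω Q := fun x hx => (f.1 hx).1
  have c1 := h4.sub_dvd D (sub i.1) (sub i.2.1) (sub i.2.2.1) (nd3 D)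
  have := Set.ncard_le_ncard sub
  rw [ncard_pairs, ncard_out _ (by simpa) (by simp [hp, hq, np, nq]), Set.ncard_sdiff sub, l'] at c
  simp only [l, List.length_cons, List.length_nil] at c c1
  omega

theorem nagao [FaithfulSMul G Ω] (D : D4 a b c d) (ev : 2 ∣ ♯(S4 G a b c d)) (he : e ∈ Bl G a b c d) :
    e ∈ [a, b, c, d] := by
  by_contra n
  obtain ⟨P, s⟩ := exists_syl 2 (S4 G a b c d)
  have i := le_S4.1 s.le
  have h1 := ((h4.witt_syl D s).hall D i fun g hg m k => self_Pt_Fx (s.mem_of_norm m hg k)).1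
  have h2 := ((h4.witt D fun g hg => ⟨1, one_mem _, by rw [eq_of_card_eq hg (card_cj ..), cj_one]⟩).hall D in_Bl
    fun g _ m _ => self_Pt_Fx m).1
  have h3 : ∀ {N : Subgroup G} {Φ : Set Ω}, e ∈ Φ → In4 Φ a b c d → ¬ (Φ.ncard = 7 ∧ Alt N Φ ∧ Ev N Φ) :=
    fun m i h => let ⟨g, _, m1, m2⟩ := h.2.1.move h.1.ge m n i; m2 (he m1)
  replace h1 := (h1.resolve_right (h3 (Bl_sub i he) i)).1
  replace h2 := (h2.resolve_right (h3 he in_Bl)).1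
  have h5 := le_ncard [a, b, c, d, e] (Φ := Bl G a b c d) (nd5 D n) (by simpa [he] using in_Bl)
  have h6 := h4.sub_dvd D i.1 i.2.1 i.2.2.1 (nd3 D)
  have h7 := Set.ncard_le_ncard (Bl_sub i)
  obtain ⟨Q, -, ⟨l, m⟩, mx⟩ := exists_maximal (P := fun Q => Q ≤ P ∧ ¬ Fx Ω Q ⊆ Fx Ω P) (H := ⊥)
    ⟨bot_le, fun k => s.syl_ne_bot p2 ev (eq_bot_of_forall fun g hg =>
      eq_of_smul_eq_smul fun x : Ω => (k (mem_Fx.2 bot_le) hg).trans (one_smul _ _).symm)⟩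
  obtain ⟨u, hu, nu, u1, u2⟩ := exists_sq_norm s.pi (lt_of_le_of_ne l fun e => m (e ▸ le_rfl))
  obtain ⟨p, hp, np⟩ := Set.not_subset.1 m
  have := h4.nagao_aux D i (norm_St nu) (self_Pt_Fx u2) (fun {x} => ⟨fun hx => ⟨l.trans hx, hx hu⟩, fun hx => by
    by_contra k
    exact u1 ((mx (Q ⊔ zpowers u) ⟨sup_le l (zpowers_le.2 hu), fun j => k (j (sup_le hx.1 (zpowers_le.2 hx.2)))⟩
      le_sup_left).le (mem_sup_right (mem_zpowers u)))⟩) hp np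
  simp only [List.length_cons, List.length_nil] at h5
  generalize (Bl G a b c d).ncard = m at *
  generalize (Fx Ω P).ncard = n at *
  clear * - h1 h2 h5 h6 h7 this
  rcases h2 with rfl | rfl | rfl | rfl <;> rcases h1 with rfl | rfl | rfl | rfl <;> simp at *

end G4
end CF.Q4
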